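import Cfsg.Agent.H609.TwoDefect
import Cfsg.Agent.H500.KGV.Eig

/-!
# The values of the characters of a `2`-block whose defect groups have exponent two (S4577, P2)

* `irr_mem_closure` : `χ g` lies in the ring generated by the `m`-th roots of unity, `m` the odd part of `|G|`;
* `irr_fixed` : a ring endomorphism of `ℂ` fixing the `m`-th roots of unity fixes `χ g`.
-/

set_option autoImplicit false

namespace Cfsg.Agent.H421.KS

open Cfsg Cfsg.Agent.H500.KGV Cfsg.Agent.H644.KGV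

variable {G : Type*} [Group G] [Finite G] {M : Ideal AlgInt} {B : Set (IrrCharacter G)} {D : Subgroup G}

/-- off the elements with `2`-part an involution, the characters vanish -/
theorem irr_eq_zero_or (hM : IsPModular 2 M) (hB : IsPBlock M B) (hD : IsDefectGroup 2 M B D)
    (hexp : ∀ x ∈ D, x ^ 2 = 1) {χ : IrrCharacter G} (hχ : χ ∈ B) (g : G) :
    (χ : G → ℂ) g = 0 ∨ g ^ (2 * ordCompl[2] (Nat.card G)) = 1 := by
  have := Fact.mk Nat.prime_two
  obtain ⟨x, hx⟩ := Blocks.PPart.exists_isPPart (p := 2) g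
  by_cases h : ∃ D' : Subgroup G, IsDefectGroup 2 M (blockOf M (χ : G → ℂ)) D' ∧ x ∈ D'
  · right
    obtain ⟨D', hD', hxD⟩ := h
    have hMp : M.IsPrime := hM.2.1.isPrime
    have hBχ : blockOf M (χ : G → ℂ) = B :=
      Blocks.Basic.isPBlock_eq_of_mem ⟨χ, rfl⟩ hB (Blocks.Basic.mem_blockOf_self χ) hχ
    rw [hBχ] at hD'
    obtain ⟨c, rfl⟩ := H609.TwoDefect.defectGroup_conj hM hB hD hD'
    obtain ⟨y, hy, rfl⟩ := hxD
    have hx2 : ((MulAut.conj c).toMonoidHom y) ^ 2 = 1 := by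
      rw [← map_pow, hexp y hy, map_one]
    obtain ⟨z, hz, hc, -, hz2⟩ := hx
    have hzm : z ^ ordCompl[2] (Nat.card G) = 1 := by
      rw [← orderOf_dvd_iff_pow_eq_one]
      have h1 : (orderOf z).Coprime (ordProj[2] (Nat.card G)) :=
        ((Nat.Prime.coprime_iff_not_dvd Nat.prime_two).2 hz2).symm.pow_right _
      refine h1.dvd_of_dvd_mul_left ?_
      rw [Nat.ordProj_mul_ordCompl_eq_self]
      exact orderOf_dvd_natCard z
    rw [← hz, hc.mul_pow, pow_mul, hx2, one_pow, one_mul, mul_comm, pow_mul, hzm, one_pow]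
  · left
    push Not at h
    exact S0924.result 2 M hM χ g x hx h

theorem eig_sign {m : ℕ} (hm : Odd m) {z : ℂ} (hz : z ^ (2 * m) = 1) : z ^ m = 1 ∨ (-z) ^ m = 1 := by
  rw [mul_comm, pow_mul] at hz
  rcases mul_self_eq_one_iff.1 (by rw [← sq]; exact hz : z ^ m * z ^ m = 1) with h | h
  · exact Or.inl h
  · exact Or.inr (by rw [hm.neg_pow, h, neg_neg])

/-- the ring generated by the `m`-th roots of unity, `m` the odd part of `|G|` -/
theorem irr_mem_closure (hM : IsPModular 2 M) (hB : IsPBlock M B) (hD : IsDefectGroup 2 M B D)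
    (hexp : ∀ x ∈ D, x ^ 2 = 1) {χ : IrrCharacter G} (hχ : χ ∈ B) (g : G) :
    (χ : G → ℂ) g ∈ Subring.closure {z : ℂ | z ^ ordCompl[2] (Nat.card G) = 1} := by
  set m := ordCompl[2] (Nat.card G) with hm
  have hodd : Odd m := by
    rw [← Nat.not_even_iff_odd, even_iff_two_dvd]
    exact Nat.not_dvd_ordCompl Nat.prime_two Nat.card_pos.ne'
  rcases irr_eq_zero_or hM hB hD hexp hχ g with h | h
  · rw [h]
    exact Subring.zero_mem _
  · rw [apply_eq_sum_eig (Characters.Core.isIrr_isCharacter χ.2) g]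
    refine Subring.multiset_sum_mem _ _ fun z hz => ?_
    rcases eig_sign hodd (pow_of_mem_eig hz h) with h1 | h1
    · exact Subring.subset_closure h1
    · rw [← neg_neg z]
      exact Subring.neg_mem _ (Subring.subset_closure h1)

/-- a ring endomorphism of `ℂ` fixing the `m`-th roots of unity, `m` the odd part of `|G|`, fixes the values -/
theorem irr_fixed (hM : IsPModular 2 M) (hB : IsPBlock M B) (hD : IsDefectGroup 2 M B D)
    (hexp : ∀ x ∈ D, x ^ 2 = 1) {χ : IrrCharacter G} (hχ : χ ∈ B) (σ : ℂ →+* ℂ)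
    (hσ : ∀ z : ℂ, z ^ ordCompl[2] (Nat.card G) = 1 → σ z = z) (g : G) :
    σ ((χ : G → ℂ) g) = (χ : G → ℂ) g := by
  have h1 : Subring.closure {z : ℂ | z ^ ordCompl[2] (Nat.card G) = 1} ≤ RingHom.eqLocus σ (RingHom.id ℂ) :=
    (Subring.closure_le).2 fun z hz => hσ z hz
  exact h1 (irr_mem_closure hM hB hD hexp hχ g)

theorem mem_adjoin_int {m : ℕ} (hm : m ≠ 0) {ζ : ℂ} (hζ : IsPrimitiveRoot ζ m) {z : ℂ} (hz : z ^ m = 1) :
    z ∈ Algebra.adjoin ℤ {ζ} := by
  have : NeZero m := ⟨hm⟩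
  obtain ⟨i, -, rfl⟩ := hζ.eq_pow_of_pow_eq_one hz
  exact Subalgebra.pow_mem _ (Algebra.self_mem_adjoin_singleton ℤ ζ) i

/-- the values lie in `ℤ[ζ]`, `ζ` a primitive `m`-th root of unity, `m` the odd part of `|G|` -/
theorem irr_mem_adjoin (hM : IsPModular 2 M) (hB : IsPBlock M B) (hD : IsDefectGroup 2 M B D)
    (hexp : ∀ x ∈ D, x ^ 2 = 1) {χ : IrrCharacter G} (hχ : χ ∈ B) {ζ : ℂ}
    (hζ : IsPrimitiveRoot ζ (ordCompl[2] (Nat.card G))) (g : G) :
    (χ : G → ℂ) g ∈ Algebra.adjoin ℤ {ζ} := by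
  have h1 : Subring.closure {z : ℂ | z ^ ordCompl[2] (Nat.card G) = 1} ≤ (Algebra.adjoin ℤ {ζ}).toSubring :=
    (Subring.closure_le).2 fun z hz => mem_adjoin_int (Nat.ordCompl_pos 2 Nat.card_pos.ne').ne' hζ hz
  exact h1 (irr_mem_closure hM hB hD hexp hχ g)

/-- the values lie in the field `ℚ(ζ)` -/
theorem irr_mem_range (hM : IsPModular 2 M) (hB : IsPBlock M B) (hD : IsDefectGroup 2 M B D)
    (hexp : ∀ x ∈ D, x ^ 2 = 1) {χ : IrrCharacter G} (hχ : χ ∈ B) (K : IntermediateField ℚ ℂ)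
    (hK : ∀ z : ℂ, z ^ ordCompl[2] (Nat.card G) = 1 → z ∈ K) (g : G) :
    (χ : G → ℂ) g ∈ Set.range (algebraMap K ℂ) := by
  have h1 : Subring.closure {z : ℂ | z ^ ordCompl[2] (Nat.card G) = 1} ≤ K.toSubring :=
    (Subring.closure_le).2 fun z hz => hK z hz
  exact ⟨⟨_, h1 (irr_mem_closure hM hB hD hexp hχ g)⟩, rfl⟩

theorem mem_adjoin_of_pow {m : ℕ} (hm : m ≠ 0) {ζ : ℂ} (hζ : IsPrimitiveRoot ζ m) {z : ℂ} (hz : z ^ m = 1) :
    z ∈ IntermediateField.adjoin ℚ {ζ} := by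
  have : NeZero m := ⟨hm⟩
  obtain ⟨i, -, rfl⟩ := hζ.eq_pow_of_pow_eq_one hz
  exact pow_mem (IntermediateField.mem_adjoin_simple_self ℚ ζ) i

/-- the values lie in the field `ℚ(ζ)`, `ζ` a primitive `m`-th root of unity, `m` the odd part of `|G|` -/
theorem irr_mem_range' (hM : IsPModular 2 M) (hB : IsPBlock M B) (hD : IsDefectGroup 2 M B D)
    (hexp : ∀ x ∈ D, x ^ 2 = 1) {χ : IrrCharacter G} (hχ : χ ∈ B) {ζ : ℂ}
    (hζ : IsPrimitiveRoot ζ (ordCompl[2] (Nat.card G))) (g : G) :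
    (χ : G → ℂ) g ∈ Set.range (algebraMap (IntermediateField.adjoin ℚ {ζ}) ℂ) :=
  irr_mem_range hM hB hD hexp hχ _
    (fun _ hz => mem_adjoin_of_pow (Nat.ordCompl_pos 2 Nat.card_pos.ne').ne' hζ hz) g

end Cfsg.Agent.H421.KS
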